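import Cfsg.Agent.H492.K4Fi24
import Cfsg.Agent.H989.TwoCSpor

/-!
# Odd degree characters of `Fi24'` (helper492)

`good5_fi24` : row (A) of S4547 for `Fi24'`; `odd5_fi24` : row (A) of S4947.
-/

set_option autoImplicit false

namespace Cfsg.Agent.H492.K4Fi24Fin

open Cfsg.Agent.H601.K4

universe u

/-- **Row (A) of S4547 for `Fi24'`.** -/
theorem good5_fi24 {S : Type u} [Group S] (h : Cfsg.Spor.IsoFi24' S) : Good5 S := by
  have hfin : Finite Cfsg.Spor.Fi24 := Cfsg.Agent.R08.FiTwentyFour.finite_Fi24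
  have : Finite S := Finite.of_equiv _ h.some.symm.toEquiv
  exact K4Fi24.good5_fi24_of h (H989.TwoCSpor.twoC_fi24 h) (H989.TwoCSpor.twoC_fi24 ⟨MulEquiv.refl _⟩)

/-- **Row (A) of S4947 for `Fi24'`.** -/
theorem odd5_fi24 {S : Type u} [Group S] (h : Cfsg.Spor.IsoFi24' S) : Odd5 S := (good5_fi24 h).odd5

end Cfsg.Agent.H492.K4Fi24Fin
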