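import Cfsg.Agent.H471.Eight.CertJ4
import Cfsg.Agent.H417.JFourDeg
import Cfsg.Agent.H492.IMJ4

/-!
# `J4` has at least eight character degrees (helper492, for S4899)
-/

set_option autoImplicit false

namespace Cfsg.Agent.H492.RowJ4

open Cfsg Cfsg.Agent.Characters.Core Cfsg.Agent.H664.Eight
open Cfsg.Agent.H859.BigNum Cfsg.Agent.H858 Cfsg.Agent.H417.JFourDeg

universe u

theorem eight_j4' : Eight Spor.J4 := by
  have hfin : Finite Spor.J4 := H337.finite_of_isoJ4 isoK
  have hsim : IsSimpleGroup Spor.J4 := (KFacts.J4.Base.exists_full isoK).2.1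
  have ex : ∀ p : ℕ, p.Prime → p ∣ 86775571046077562880 → ∃ x : Spor.J4, orderOf x = p := by
    intro p hp hd
    have := Fact.mk hp
    exact exists_prime_orderOf_dvd_card' (G := Spor.J4) p (by rw [card_K]; exact hd)
  refine H471.Eight.CertJ4.eight card_K ?_ ?_
  · intro pk hpk
    simp only [List.mem_cons, List.not_mem_nil, or_false] at hpk
    rcases hpk with rfl | rfl | rfl | rfl | rfl
    · obtain ⟨x, hx⟩ := ex 43 (by norm_num) (by norm_num)
      exact ⟨x, hx, (cent_of (fun P hP => (data43 hP).1) x hx).trans (by norm_num)⟩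
    · obtain ⟨x, hx⟩ := ex 37 (by norm_num) (by norm_num)
      exact ⟨x, hx, (cent_of (fun P hP => (data37 hP).1) x hx).trans (by norm_num)⟩
    · obtain ⟨x, hx⟩ := ex 31 (by norm_num) (by norm_num)
      exact ⟨x, hx, (cent_of (fun P hP => (data31 hP).1) x hx).trans (by norm_num)⟩
    · obtain ⟨x, hx⟩ := ex 29 (by norm_num) (by norm_num)
      exact ⟨x, hx, (cent_of (fun P hP => (data29' hP).1) x hx).trans (by norm_num)⟩
    · obtain ⟨x, hx⟩ := ex 23 (by norm_num) (by norm_num)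
      exact ⟨x, hx, (cent_of (fun P hP => (data23 hP).1) x hx).trans (by norm_num)⟩
  · intro d hd
    simp only [List.mem_cons, List.not_mem_nil, or_false] at hd
    rcases hd with rfl | rfl | rfl | rfl | rfl
    · obtain ⟨χ, hχ⟩ := H492.IMJ4.exists_889111
      exact ⟨χ, H670.PSing.charDegree_eq_of hχ⟩
    · obtain ⟨χ, hχ⟩ := H492.IMJ4.exists_1776888
      exact ⟨χ, H670.PSing.charDegree_eq_of hχ⟩
    · obtain ⟨χ, hχ⟩ := H492.IMJ4.exists_4290927
      exact ⟨χ, H670.PSing.charDegree_eq_of hχ⟩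
    · obtain ⟨χ, hχ⟩ := H492.IMJ4.exists_95288172
      exact ⟨χ, H670.PSing.charDegree_eq_of hχ⟩
    · obtain ⟨χ, hχ⟩ := H492.IMJ4.exists_35411145
      exact ⟨χ, H670.PSing.charDegree_eq_of hχ⟩

/-- **`J4`.** -/
theorem eight_j4 {S : Type u} [Group S] (h : Spor.IsoJ4 S) : Eight S := by
  obtain ⟨e⟩ := h
  exact eight_j4'.of_equiv e

end Cfsg.Agent.H492.RowJ4
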